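import Groth.Agent.Vancyc.H688.TwoPts
import Groth.Agent.Etrest.HpullConst
import Groth.Agent.S0101
import Groth.Agent.Etcore.HpullEq

/-!
# `H⁰(W, M) → H⁰(T, M)` for `T` two geometric points of a connected scheme `W`

* `coker_two`: the algebra;
* `main`: `W` connected, `i : T ⟶ W`, `T` two geometric points: for the constant sheaf `G` with value `M`
  on `W` the map `H⁰(W, G) → H⁰(T, i⁻¹ G)` is injective with cokernel isomorphic to `H⁰(W, G)`;
* `nonempty_H0_const`: `H⁰(W, M) ≃ M` for `W` connected.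
-/

set_option autoImplicit false
universe u
open CategoryTheory CategoryTheory.Limits AlgebraicGeometry Opposite

namespace Groth.Agent.Vancyc.H688.TwoCoker

open Groth.Agent.Etcore
open scoped Groth.Agent.Etcore.EtInst
open Groth.Agent.Etcore.EtInst
open Groth.Agent.Etrest.HpullConst (constU)

section algebra

universe v w x

/-- The diagonal-like subgroup of a product of two groups. -/
theorem coker_two {H : Type v} {K : Type w} [AddCommGroup H] [AddCommGroup K] {A : Fin 2 → Type x}
    [∀ i, AddCommGroup (A i)] (r : H →+ K) (p : ∀ i, K →+ A i)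
    (hp : Function.Bijective (fun (k : K) (i : Fin 2) => p i k))
    (hr : ∀ i, Function.Bijective (fun h : H => p i (r h))) :
    Function.Injective r ∧ Nonempty ((K ⧸ r.range) ≃+ H) := by
  let e : ∀ i, H ≃+ A i := fun i => AddEquiv.ofBijective ((p i).comp r) (hr i)
  have he : ∀ i h, e i h = p i (r h) := fun i h => rfl
  refine ⟨fun a b hab => (hr 0).1 (congrArg (p 0) hab), ?_⟩
  let δ : K →+ H := ((e 1).symm : A 1 →+ H).comp (p 1) - ((e 0).symm : A 0 →+ H).comp (p 0)
  have hδ : ∀ k, δ k = (e 1).symm (p 1 k) - (e 0).symm (p 0 k) := fun k => rfl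
  have hs : Function.Surjective δ := by
    intro h
    obtain ⟨k, hk⟩ := hp.2 (Fin.cons 0 (Fin.cons (e 1 h) (fun i => i.elim0)) : ∀ i, A i)
    refine ⟨k, ?_⟩
    have h0 : p 0 k = 0 := congrFun hk 0
    have h1 : p 1 k = e 1 h := congrFun hk 1
    rw [hδ, h0, h1, map_zero, sub_zero, AddEquiv.symm_apply_apply]
  have hker : δ.ker = r.range := by
    ext k
    rw [AddMonoidHom.mem_ker, AddMonoidHom.mem_range, hδ, sub_eq_zero]
    constructor
    · intro hk
      refine ⟨(e 0).symm (p 0 k), hp.1 (funext fun i => ?_)⟩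
      fin_cases i
      · exact (he 0 _).symm.trans ((e 0).apply_symm_apply _)
      · change p 1 (r _) = p 1 k
        rw [← hk, ← he 1, (e 1).apply_symm_apply]
    · rintro ⟨h, rfl⟩
      rw [← he, ← he, AddEquiv.symm_apply_apply, AddEquiv.symm_apply_apply]
  exact ⟨(QuotientAddGroup.quotientAddEquivOfEq hker).symm.trans
    (QuotientAddGroup.quotientKerEquivOfSurjective δ hs)⟩

end algebra

/-- `H⁰(W, M) ≃ M` for `W` connected. -/
theorem nonempty_H0_const (W : Scheme.{u}) [PreconnectedSpace W] [Nonempty W]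
    (M : AddCommGrpCat.{u + 1}) : Nonempty (HH W ((constU W).obj M) 0 ≃+ M) := by
  have h1 : IsIso ((constantSheafAdj W.smallEtaleTopology AddCommGrpCat.{u + 1}
      (EtCore.topIsTerminal W)).unit.app M) :=
    (Etrest.HpullConst.isIso_unit_iff W M (EtCore.topIsTerminal W)).2
      (Etrest.HpullConst.bijective_const (T := W) M)
  exact ⟨(HpullCalc.H0 W ((constU W).obj M)).trans
    (asIso ((constantSheafAdj W.smallEtaleTopology AddCommGrpCat.{u + 1}
      (EtCore.topIsTerminal W)).unit.app M)).addCommGroupIsoToAddEquiv.symm⟩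

theorem bijective_hp_const {X Y : Scheme.{u}} (f : X ⟶ Y) [PreservesFiniteLimits (EtCoh.pull f)]
    [PreconnectedSpace X] [Nonempty X] [PreconnectedSpace Y] [Nonempty Y] (M : AddCommGrpCat.{u + 1}) :
    Function.Bijective (HpullCalc.hp f ((constU Y).obj M) 0) := by
  have h1 : ∀ (X : Scheme.{u}) [PreconnectedSpace X] [Nonempty X],
      IsIso ((constantSheafAdj X.smallEtaleTopology AddCommGrpCat.{u + 1}
        (EtCore.topIsTerminal X)).unit.app M) := fun X _ _ =>
    (Etrest.HpullConst.isIso_unit_iff X M (EtCore.topIsTerminal X)).2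
      (Etrest.HpullConst.bijective_const (T := X) M)
  exact (HpullCalc.bijective_Hpull_iff f _ 0).1 (Etrest.HpullConst.bijective_Hpull_zero_const f M
    (Etrest.HpullConst.constU_map_bijective X _ _ (EtCore.topIsTerminal X) (h1 X))
    (Etrest.HpullConst.constU_map_bijective Y _ _ (EtCore.topIsTerminal Y) (h1 Y)))

/-- Two geometric points of a connected scheme. -/
theorem main {T W : Scheme.{u}} {Ω : Type u} [Field Ω] [IsSepClosed Ω]
    (s : T ⟶ Spec (CommRingCat.of Ω)) (a : Fin 2 → (Spec (CommRingCat.of Ω) ⟶ T))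
    (ha : ∀ i, a i ≫ s = 𝟙 _) (hb : Function.Bijective fun i => a i default)
    (i : T ⟶ W) [PreconnectedSpace W] [Nonempty W] (M : AddCommGrpCat.{u + 1})
    [PreservesFiniteLimits (EtCoh.pull i)] :
    Function.Injective (HpullCalc.hp i ((constU W).obj M) 0) ∧
      Nonempty ((HH T ((EtCoh.pull i).obj ((constU W).obj M)) 0 ⧸
        (HpullCalc.hp i ((constU W).obj M) 0).range) ≃+ M) := by
  have hl : ∀ j, PreservesFiniteLimits (EtCoh.pull (a j)) := fun j => Groth.Agent.S0101.result (a j)
  have h1 := TwoPts.bijective_hp_pi s a hl ha hb ((EtCoh.pull i).obj ((constU W).obj M))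
  have h2 := coker_two (HpullCalc.hp i ((constU W).obj M) 0)
    (fun j => HpullCalc.hp (a j) ((EtCoh.pull i).obj ((constU W).obj M)) 0) h1 (fun j => by
      have hl2 : PreservesFiniteLimits (EtCoh.pull (a j ≫ i)) := Groth.Agent.S0101.result (a j ≫ i)
      have h3 := bijective_hp_const (a j ≫ i) M
      have h4 : (fun x => HpullCalc.hp (a j) ((EtCoh.pull i).obj ((constU W).obj M)) 0
          (HpullCalc.hp i ((constU W).obj M) 0 x)) =
        (HHmap ((EtCore.pullComp (a j) i).hom.app ((constU W).obj M)) 0) ∘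
          (HpullCalc.hp (a j ≫ i) ((constU W).obj M) 0) :=
        funext fun x => HpullCalc.hp_comp (a j) i ((constU W).obj M) 0 x
      rw [h4]
      exact (HHmap_bijective ((EtCore.pullComp (a j) i).hom.app ((constU W).obj M)) 0).comp h3)
  obtain ⟨e⟩ := h2.2
  obtain ⟨e'⟩ := nonempty_H0_const W M
  exact ⟨h2.1, ⟨e.trans e'⟩⟩

end Groth.Agent.Vancyc.H688.TwoCoker
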