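import Groth.Agent.Vancyc.H688.TwoRoots
import Groth.Agent.Vancyc.H688.TwoCoker

/-!
# (TWO) The geometric generic fibre of `R[X]/(X² + bX + c)`

`Ω` separably closed with an `R`-algebra structure, `b² - 4c ≠ 0` in `Ω`, `T = Spec R[X]/P ×_R Spec Ω`,
`P = X² + bX + c`:

* `exists_roots`: the two roots of `P` in `Ω`;
* `exists_points`: `T` is the union of two geometric points (sections of `T ⟶ Spec Ω`);
* `subsingleton_H`: `H^q(T, F) = 0`, `q > 0`;
* `coker`: for `i : T ⟶ W`, `W` connected, `H⁰(W, M) → H⁰(T, M)` is injective with cokernel `M`;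
* `nonempty_H0`: `H⁰(T, M) ≃ M × M`.
-/

set_option autoImplicit false
universe u
open CategoryTheory CategoryTheory.Limits AlgebraicGeometry Opposite Polynomial

namespace Groth.Agent.Vancyc.H688.TwoMain

open Groth.Agent.Etcore
open scoped Groth.Agent.Etcore.EtInst
open Groth.Agent.Etcore.EtInst
open Groth.Agent.Etrest.HpullConst (constU)

/-- The two roots of a separable quadratic polynomial. -/
theorem exists_roots {Ω : Type u} [Field Ω] [IsSepClosed Ω] (b c : Ω) (hd : b ^ 2 - 4 * c ≠ 0) :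
    ∃ α β : Ω, α ≠ β ∧ b = -(α + β) ∧ c = α * β := by
  let P : Polynomial Ω := X ^ 2 + C b * X + C c
  have hdeg : P.degree = 2 := by
    have h1 : P = C 1 * X ^ 2 + C b * X + C c := by rw [C_1, one_mul]
    rw [h1]
    exact degree_quadratic one_ne_zero
  have hsep : P.Separable := by
    have h2 : derivative P = C 2 * X + C b := by
      simp only [P, derivative_add, derivative_X_pow, derivative_mul, derivative_C, derivative_X]
      simp
    refine ⟨C (-4 * (b ^ 2 - 4 * c)⁻¹), C ((b ^ 2 - 4 * c)⁻¹) * (C 2 * X + C b), ?_⟩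
    rw [h2]
    have h3 : C ((b ^ 2 - 4 * c)⁻¹) * C (b ^ 2 - 4 * c) = (1 : Polynomial Ω) := by
      rw [← C_mul, inv_mul_cancel₀ hd, C_1]
    have h4 : (C (b ^ 2 - 4 * c) : Polynomial Ω) = C b ^ 2 - 4 * C c := by
      simp only [map_sub, map_pow, map_mul]
      congr 1
    have h5 : (C (-4 * (b ^ 2 - 4 * c)⁻¹) : Polynomial Ω) = -4 * C ((b ^ 2 - 4 * c)⁻¹) := by
      simp only [map_mul, map_neg]
      congr 1
    have h6 : (C 2 : Polynomial Ω) = 2 := rfl
    rw [h4] at h3
    rw [h5, h6]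
    simp only [P]
    linear_combination h3
  obtain ⟨α, hα⟩ := IsSepClosed.exists_root P (by rw [hdeg]; decide) hsep
  have h7 : α ^ 2 + b * α + c = 0 := by
    have h8 : P.eval α = 0 := hα
    simpa [P] using h8
  refine ⟨α, -b - α, ?_, by ring, by linear_combination h7⟩
  intro h9
  apply hd
  have h10 : 2 * α + b = 0 := by linear_combination h9
  linear_combination (2 * α + b) * h10 - 4 * h7

/-- The quadratic algebra. -/
abbrev Q (R : Type u) [CommRing R] (b c : R) : Type u :=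
  R[X] ⧸ Ideal.span {(X ^ 2 + C b * X + C c : R[X])}

variable {R Ω : Type u} [CommRing R] [Field Ω] [IsSepClosed Ω] [Algebra R Ω] (b c : R)
  (hd : algebraMap R Ω (b ^ 2 - 4 * c) ≠ 0) {T : Scheme.{u}}
  {pr : T ⟶ Spec (CommRingCat.of (Q R b c))} {s : T ⟶ Spec (CommRingCat.of Ω)}
  (h : IsPullback pr s (Spec.map (CommRingCat.ofHom (algebraMap R (Q R b c))))
    (Spec.map (CommRingCat.ofHom (algebraMap R Ω))))

include hd h in
/-- `T` is the union of two geometric points. -/
theorem exists_points : ∃ a : Fin 2 → (Spec (CommRingCat.of Ω) ⟶ T), (∀ i, a i ≫ s = 𝟙 _) ∧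
    Function.Bijective fun i => a i default := by
  have hd' : algebraMap R Ω b ^ 2 - 4 * algebraMap R Ω c ≠ 0 := by
    intro h0
    apply hd
    rw [map_sub, map_pow, map_mul, map_ofNat]
    exact h0
  obtain ⟨α, β, hαβ, hb, hc⟩ := exists_roots (algebraMap R Ω b) (algebraMap R Ω c) hd'
  have ev : ∀ γ : Ω, γ ^ 2 + algebraMap R Ω b * γ + algebraMap R Ω c = 0 →
      ∃ e : Q R b c →ₐ[R] Ω, e (Ideal.Quotient.mk _ X) = γ := by
    intro γ hγ
    refine ⟨Ideal.Quotient.liftₐ _ (aeval γ) ?_, ?_⟩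
    · intro y hy
      rw [Ideal.mem_span_singleton] at hy
      obtain ⟨z, rfl⟩ := hy
      rw [map_mul]
      have h1 : aeval γ (X ^ 2 + C b * X + C c : R[X]) = 0 := by
        simpa [aeval_C] using hγ
      rw [h1, zero_mul]
    · exact (Ideal.Quotient.liftₐ_apply _ _ _ _).trans (by simp)
  obtain ⟨eα, heα⟩ := ev α (by rw [hb, hc]; ring)
  obtain ⟨eβ, heβ⟩ := ev β (by rw [hb, hc]; ring)
  have hgen : Algebra.adjoin R {(Ideal.Quotient.mk (Ideal.span {(X ^ 2 + C b * X + C c : R[X])}) X :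
      Q R b c)} = ⊤ := by
    have h1 : Algebra.adjoin R {(X : R[X])} = ⊤ := Polynomial.adjoin_X
    have h2 := congrArg (Subalgebra.map (Ideal.Quotient.mkₐ R
      (Ideal.span {(X ^ 2 + C b * X + C c : R[X])}))) h1
    rw [AlgHom.map_adjoin, Set.image_singleton, Algebra.map_top] at h2
    refine Eq.trans h2 ?_
    rw [AlgHom.range_eq_top]
    exact Ideal.Quotient.mkₐ_surjective R _
  have hx : (Ideal.Quotient.mk (Ideal.span {(X ^ 2 + C b * X + C c : R[X])}) X : Q R b c) ^ 2 +
      algebraMap R (Q R b c) b * Ideal.Quotient.mk _ X + algebraMap R (Q R b c) c = 0 := by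
    have h1 : (Ideal.Quotient.mk (Ideal.span {(X ^ 2 + C b * X + C c : R[X])})
      (X ^ 2 + C b * X + C c) : Q R b c) = 0 :=
      Ideal.Quotient.eq_zero_iff_mem.2 (Ideal.subset_span rfl)
    rw [map_add, map_add, map_pow, map_mul] at h1
    exact h1
  obtain ⟨a, h1, -, -, h2⟩ := TwoRoots.exists_sections _ hgen α β hαβ b c hx hb hc eα eβ heα heβ h
  exact ⟨a, h1, h2⟩

include h in
theorem isAffine : IsAffine T := by
  have h1 := h.isoPullback
  exact IsAffine.of_isIso h1.hom

include hd h in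
/-- Vanishing in positive degrees. -/
theorem subsingleton_H (F : EtCoh.Ab T) (q : ℕ) (hq : 0 < q) : Subsingleton (EtCoh.H T F q) := by
  obtain ⟨a, ha, hb⟩ := exists_points b c hd h
  have := isAffine b c h
  exact TwoPts.subsingleton_H s a ha hb.2 F q hq

include hd h in
/-- `H⁰(W, M) → H⁰(T, M)`, `W` connected, is injective with cokernel `M`. -/
theorem coker {W : Scheme.{u}} (i : T ⟶ W) [PreconnectedSpace W] [Nonempty W]
    (M : AddCommGrpCat.{u + 1}) [PreservesFiniteLimits (EtCoh.pull i)] :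
    Function.Injective (HpullCalc.hp i ((constU W).obj M) 0) ∧
      Nonempty ((HH T ((EtCoh.pull i).obj ((constU W).obj M)) 0 ⧸
        (HpullCalc.hp i ((constU W).obj M) 0).range) ≃+ M) := by
  obtain ⟨a, ha, hb⟩ := exists_points b c hd h
  exact TwoCoker.main s a ha hb i M

include hd h in
/-- `H⁰(T, M) ≃ M × M`. -/
theorem nonempty_H0 (M : AddCommGrpCat.{u + 1}) :
    Nonempty (HH T ((constU T).obj M) 0 ≃+ (Fin 2 → M)) := by
  obtain ⟨a, ha, hb⟩ := exists_points b c hd h
  have hl : ∀ j, PreservesFiniteLimits (EtCoh.pull (a j)) := fun j => Groth.Agent.S0101.result (a j)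
  have h1 := TwoPts.bijective_hp_pi s a hl ha hb ((constU T).obj M)
  let Φ : HH T ((constU T).obj M) 0 →+ (∀ j, HH _ ((EtCoh.pull (a j)).obj ((constU T).obj M)) 0) :=
    AddMonoidHom.pi fun j => HpullCalc.hp (a j) ((constU T).obj M) 0
  have e1 : HH T ((constU T).obj M) 0 ≃+
      (∀ j, HH _ ((EtCoh.pull (a j)).obj ((constU T).obj M)) 0) := AddEquiv.ofBijective Φ h1
  have e2 : ∀ j, Nonempty (HH (Spec (CommRingCat.of Ω)) ((EtCoh.pull (a j)).obj
      ((constU T).obj M)) 0 ≃+ M) := by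
    intro j
    obtain ⟨e⟩ := TwoCoker.nonempty_H0_const (Spec (CommRingCat.of Ω)) M
    exact ⟨(AddEquiv.ofBijective (HHmap ((EtCore.pullConstIso (a j)).app M).hom 0)
      (HHmap_bijective _ 0)).trans e⟩
  exact ⟨e1.trans (AddEquiv.piCongrRight fun j => (e2 j).some)⟩

end Groth.Agent.Vancyc.H688.TwoMain
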