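import Groth.Agent.Vancyc.H679.PunctPi
import Groth.Agent.S0088
import Groth.Agent.Etbase.PullUnit
import Groth.Agent.Etcore.HpullCalc
import Groth.Agent.Etcore.EtInst
import Groth.Agent.Hensel.Exist

/-!
# Cohomology of a finite union of geometric points

`T` affine over `Spec Ω` (`Ω` separably closed), `a i : Spec Ω ⟶ T` sections of `T ⟶ Spec Ω` with
`i ↦ a i (pt)` bijective onto the points of `T` (`ι` finite):

* `subsingleton_H`: `H^q(T, F) = 0` for `q > 0` and every `F`;
* `bijective_Hpull_pi`: `H⁰(T, F) → ∏ᵢ H⁰(Spec Ω, aᵢ⁻¹ F)` is bijective for every `F`.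
-/

set_option autoImplicit false
universe u
open CategoryTheory CategoryTheory.Limits AlgebraicGeometry Opposite

namespace Groth.Agent.Vancyc.H688.TwoPts

open Groth.Agent.Vancyc.H679.PunctPi Groth.Agent.Etcore Groth.Agent.Etbase
open scoped Groth.Agent.Etcore.EtInst
open Groth.Agent.Etcore.EtInst

variable {T : Scheme.{u}} {Ω : Type u} [Field Ω] [IsSepClosed Ω]

section geometry

omit [IsSepClosed Ω] in
/-- The image of a section of `T ⟶ Spec Ω` is closed. -/
theorem isClosed_of_section (s : T ⟶ Spec (CommRingCat.of Ω)) (a : Spec (CommRingCat.of Ω) ⟶ T)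
    (ha : a ≫ s = 𝟙 _) : IsClosed ({a default} : Set T) := by
  have h1 : IsClosedImmersion a := isClosedImmersion_of_comp_eq_id s a ha
  have h2 : Set.range a = {a default} := by
    ext y
    constructor
    · rintro ⟨z, rfl⟩
      rw [Subsingleton.elim z default]
      rfl
    · rintro rfl
      exact ⟨default, rfl⟩
  rw [← h2]
  exact a.isClosedEmbedding.isClosed_range

/-- The residue field at the image of a section of `T ⟶ Spec Ω` is `Ω`. -/
theorem isSepClosed_of_section (s : T ⟶ Spec (CommRingCat.of Ω)) (a : Spec (CommRingCat.of Ω) ⟶ T)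
    (ha : a ≫ s = 𝟙 _) : IsSepClosed (T.residueField (a default)) := by
  have h0 : (default : Spec (CommRingCat.of Ω)) = IsLocalRing.closedPoint Ω := Subsingleton.elim _ _
  rw [h0]
  let x : T := a (IsLocalRing.closedPoint Ω)
  let p : T.residueField x ⟶ CommRingCat.of Ω := T.descResidueField (Scheme.stalkClosedPointTo a)
  have hp : Spec.map p ≫ T.fromSpecResidueField x = a :=
    T.descResidueField_stalkClosedPointTo_fromSpecResidueField Ω a
  let q : CommRingCat.of Ω ⟶ T.residueField x := Spec.preimage (T.fromSpecResidueField x ≫ s)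
  have h : q ≫ p = 𝟙 _ := by
    apply Spec.map_injective
    rw [Spec.map_comp, Spec.map_preimage, ← Category.assoc, hp, ha, Spec.map_id]
  have hb : Function.Bijective p.hom := by
    refine ⟨RingHom.injective _, fun y => ⟨q.hom y, ?_⟩⟩
    exact congrArg (fun φ : CommRingCat.of Ω ⟶ CommRingCat.of Ω => φ.hom y) h
  exact Groth.Agent.Hensel.Exist.isSepClosed_of_ringEquiv (RingEquiv.ofBijective p.hom hb)

end geometry

section main

variable (s : T ⟶ Spec (CommRingCat.of Ω)) {ι : Type} (a : ι → (Spec (CommRingCat.of Ω) ⟶ T))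

theorem isClosed_singleton (ha : ∀ i, a i ≫ s = 𝟙 _) (hb : Function.Surjective fun i => a i default)
    (x : T) : IsClosed ({x} : Set T) := by
  obtain ⟨i, rfl⟩ := hb x
  exact isClosed_of_section s (a i) (ha i)

theorem isSepClosed (ha : ∀ i, a i ≫ s = 𝟙 _) (hb : Function.Surjective fun i => a i default)
    (x : T) : IsSepClosed (T.residueField x) := by
  obtain ⟨i, rfl⟩ := hb x
  exact isSepClosed_of_section s (a i) (ha i)

/-- Vanishing of the cohomology of a union of geometric points. -/
theorem subsingleton_H [IsAffine T] (ha : ∀ i, a i ≫ s = 𝟙 _)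
    (hb : Function.Surjective fun i => a i default) (F : EtCoh.Ab T) (q : ℕ) (hq : 0 < q) :
    Subsingleton (EtCoh.H T F q) :=
  Groth.Agent.S0088.result T (isClosed_singleton s a ha hb) (isSepClosed s a ha hb) F q hq

/-- Two lifts of a geometric point to the final étale scheme agree. -/
theorem fiber_ext {X : Scheme.{u}} (ξ : Spec (CommRingCat.of Ω) ⟶ X)
    (x y : (Scheme.pointSmallEtale ξ).fiber.obj (EtCoh.top X)) : x = y := by
  apply StalkSec.ext_hom
  have hx : StalkSec.hom ξ x ≫ 𝟙 X = ξ := StalkSec.hom_comp ξ x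
  have hy : StalkSec.hom ξ y ≫ 𝟙 X = ξ := StalkSec.hom_comp ξ y
  have h3 : (StalkSec.hom ξ x : Spec (CommRingCat.of Ω) ⟶ X) = StalkSec.hom ξ y :=
    (Category.comp_id _).symm.trans ((hx.trans hy.symm).trans (Category.comp_id _))
  exact h3

/-- The germ of a global section after pull-back. -/
theorem gtop_unitSec (a : Spec (CommRingCat.of Ω) ⟶ T) (F : EtCoh.Ab T)
    (s : EtCoh.sect F (EtCoh.top T)) :
    (StalkPull.stalkPullIso a (𝟙 _)).hom.app F (gtop (𝟙 _ ≫ a) F s) =
      gtop (𝟙 _) ((EtCoh.pull a).obj F) ((HpullCalc.unitSec a F).hom s) := by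
  have h1 := ConcreteCategory.congr_hom (PullUnit.toPresheafFiber_unitSect a (𝟙 _) F (EtCoh.top T)
    (topPt (𝟙 _ ≫ a))) s
  refine Eq.trans (b := StalkSec.germ (𝟙 _) ((EtCoh.pull a).obj F) ((EtCoh.bc a).obj (EtCoh.top T))
    (StalkPull.fiberEquiv a (𝟙 _) (EtCoh.top T) (topPt (𝟙 _ ≫ a)))
    (PullUnit.unitSect a F (EtCoh.top T) s)) h1 ?_
  have h2 : (HpullCalc.unitSec a F).hom s = ((EtCoh.pull a).obj F).obj.map (EtCore.bcTopIso a).inv.op
      (PullUnit.unitSect a F (EtCoh.top T) s) := by
    rw [HpullCalc.unitSec_eq]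
    rfl
  rw [h2, gtop_apply, StalkSec.germ_res]
  congr 1
  have h3 : (Scheme.pointSmallEtale (𝟙 _)).fiber.map (EtCore.bcTopIso a).hom
      (StalkPull.fiberEquiv a (𝟙 _) (EtCoh.top T) (topPt (𝟙 _ ≫ a))) = topPt (𝟙 _) := fiber_ext _ _ _
  rw [← h3, ← Functor.map_comp_apply, Iso.hom_inv_id, Functor.map_id_apply]

/-- Global sections at a separably closed point. -/
theorem bijective_gtop_point (G : EtCoh.Ab (Spec (CommRingCat.of Ω))) :
    Function.Bijective (gtop (𝟙 (Spec (CommRingCat.of Ω))) G) := by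
  classical
  have hc : ∀ x : Spec (CommRingCat.of Ω), IsClosed ({x} : Set (Spec (CommRingCat.of Ω))) := by
    intro x
    have h1 := isClosed_of_section (𝟙 (Spec (CommRingCat.of Ω))) (𝟙 _) (Category.comp_id _)
    have h2 : (𝟙 (Spec (CommRingCat.of Ω)) : _ ⟶ _) default = x := Subsingleton.elim _ _
    rw [h2] at h1
    exact h1
  have hs : ∀ x : Spec (CommRingCat.of Ω), IsSepClosed ((Spec (CommRingCat.of Ω)).residueField x) := by
    intro x
    have h1 := isSepClosed_of_section (𝟙 (Spec (CommRingCat.of Ω))) (𝟙 _) (Category.comp_id _)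
    have h2 : (𝟙 (Spec (CommRingCat.of Ω)) : _ ⟶ _) default = x := Subsingleton.elim _ _
    rw [h2] at h1
    exact h1
  have hF : EtPBC.supp G ⊆ ({default} : Finset (Spec (CommRingCat.of Ω))) := fun x _ => by
    rw [Subsingleton.elim x default]
    simp
  constructor
  · rw [injective_iff_map_eq_zero]
    intro t ht
    exact injective_germs _ G hF (fun _ => Ω) (fun _ => 𝟙 _) (fun x => Subsingleton.elim _ _) t
      (fun x _ => ht)
  · intro y
    obtain ⟨t, ht⟩ := surjective_germs {default} (fun x _ => hc x) (fun x _ => hs x) G hF (fun _ => Ω)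
      (fun _ => 𝟙 _) (fun x => Subsingleton.elim _ _) (fun _ => y)
    exact ⟨t, ht default (by simp)⟩

/-- Sections of a union of geometric points. -/
theorem bijective_gtop_pi [Finite ι] (ha : ∀ i, a i ≫ s = 𝟙 _)
    (hb : Function.Bijective fun i => a i default) (F : EtCoh.Ab T) :
    Function.Bijective (fun (t : EtCoh.sect F (EtCoh.top T)) (i : ι) => gtop (𝟙 _ ≫ a i) F t) := by
  classical
  let e : ι ≃ T := Equiv.ofBijective _ hb
  have : Finite T := Finite.of_equiv ι e
  have := Fintype.ofFinite T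
  let ξ : ∀ x : T, Spec (CommRingCat.of Ω) ⟶ T := fun x => 𝟙 _ ≫ a (e.symm x)
  have hξ : ∀ x, ξ x default = x := by
    intro x
    have h1 : (a (e.symm x)) default = x := e.apply_symm_apply x
    have h2 : ξ x = a (e.symm x) := Category.id_comp _
    rw [h2]
    exact h1
  have hF : EtPBC.supp F ⊆ ((Finset.univ : Finset T) : Set T) := fun x _ => by simp
  have key : ∀ (x : T) (i : ι), e i = x → ∀ t : EtCoh.sect F (EtCoh.top T),
      gtop (𝟙 _ ≫ a i) F t = 0 → gtop (ξ x) F t = 0 := by
    rintro x i rfl t ht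
    have h1 : e.symm (e i) = i := e.symm_apply_apply i
    change gtop (𝟙 _ ≫ a (e.symm (e i))) F t = 0
    rw [h1]
    exact ht
  constructor
  · intro t t' htt
    have h0 : t - t' = 0 := by
      refine injective_germs _ F hF (fun _ => Ω) ξ hξ (t - t') (fun x _ => ?_)
      refine key x (e.symm x) (e.apply_symm_apply x) _ ?_
      rw [map_sub, sub_eq_zero]
      exact congrFun htt (e.symm x)
    exact sub_eq_zero.1 h0
  · intro y
    obtain ⟨t, ht⟩ := surjective_germs Finset.univ (fun x _ => isClosed_singleton s a ha hb.2 x)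
      (fun x _ => isSepClosed s a ha hb.2 x) F hF (fun _ => Ω) ξ hξ (fun x => y (e.symm x))
    refine ⟨t, funext fun i => ?_⟩
    have h2 := ht (e i) (Finset.mem_univ _)
    have h1 : e.symm (e i) = i := e.symm_apply_apply i
    change gtop (𝟙 _ ≫ a (e.symm (e i))) F t = y (e.symm (e i)) at h2
    rw [h1] at h2
    exact h2

/-- Global sections of a union of geometric points are the families of sections at the points. -/
theorem bijective_unitSec_pi [Finite ι] (ha : ∀ i, a i ≫ s = 𝟙 _)
    (hb : Function.Bijective fun i => a i default) (F : EtCoh.Ab T) :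
    Function.Bijective (fun (t : EtCoh.sect F (EtCoh.top T)) (i : ι) =>
      (HpullCalc.unitSec (a i) F).hom t) := by
  have h1 := bijective_gtop_pi s a ha hb F
  let f (i : ι) := (StalkPull.stalkPullIso (a i) (𝟙 _)).hom.app F
  have hf : ∀ i, Function.Bijective (f i) := fun i =>
    ConcreteCategory.bijective_of_isIso ((StalkPull.stalkPullIso (a i) (𝟙 _)).hom.app F)
  let g (i : ι) := gtop (𝟙 (Spec (CommRingCat.of Ω))) ((EtCoh.pull (a i)).obj F)
  have hg : ∀ i, Function.Bijective (g i) := fun i => bijective_gtop_point _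
  have h2 : (fun y (i : ι) => g i (y i)) ∘
      (fun (t : EtCoh.sect F (EtCoh.top T)) (i : ι) => (HpullCalc.unitSec (a i) F).hom t) =
      (fun y (i : ι) => f i (y i)) ∘
      (fun (t : EtCoh.sect F (EtCoh.top T)) (i : ι) => gtop (𝟙 _ ≫ a i) F t) := by
    funext t i
    exact (gtop_unitSec (a i) F t).symm
  have h3 : Function.Bijective (fun (y : ∀ i, EtCoh.sect ((EtCoh.pull (a i)).obj F) (EtCoh.top _))
      (i : ι) => g i (y i)) := Function.Bijective.piMap hg
  have h4 : Function.Bijective (fun (y : ∀ i, ((EtCoh.stalk (𝟙 _ ≫ a i)).obj F : Type (u + 1)))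
      (i : ι) => f i (y i)) := Function.Bijective.piMap hf
  have h5 := h4.comp h1
  rw [← h2] at h5
  exact (Function.Bijective.of_comp_iff' h3 _).1 h5

/-- `H⁰` of a union of geometric points. -/
theorem bijective_hp_pi [Finite ι] (hl : ∀ i, PreservesFiniteLimits (EtCoh.pull (a i)))
    (ha : ∀ i, a i ≫ s = 𝟙 _) (hb : Function.Bijective fun i => a i default) (F : EtCoh.Ab T) :
    Function.Bijective (fun (x : HH T F 0) (i : ι) => HpullCalc.hp (a i) F 0 x) := by
  have h1 := bijective_unitSec_pi s a ha hb F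
  have h2 : (fun y (i : ι) => HpullCalc.H0 _ ((EtCoh.pull (a i)).obj F) (y i)) ∘
      (fun (x : HH T F 0) (i : ι) => HpullCalc.hp (a i) F 0 x) =
      (fun (t : EtCoh.sect F (EtCoh.top T)) (i : ι) => (HpullCalc.unitSec (a i) F).hom t) ∘
        (HpullCalc.H0 T F) := by
    funext x i
    exact HpullCalc.hp_zero (a i) F x
  have h3 : Function.Bijective (fun (y : ∀ i, HH _ ((EtCoh.pull (a i)).obj F) 0)
      (i : ι) => HpullCalc.H0 _ ((EtCoh.pull (a i)).obj F) (y i)) :=
    Function.Bijective.piMap fun i => (HpullCalc.H0 _ ((EtCoh.pull (a i)).obj F)).bijective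
  have h5 := h1.comp (HpullCalc.H0 T F).bijective
  rw [← h2] at h5
  exact (Function.Bijective.of_comp_iff' h3 _).1 h5

end main

end Groth.Agent.Vancyc.H688.TwoPts
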