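import Groth.Agent.Vancyc.H688.TwoPts
import Mathlib.RingTheory.Polynomial.Quotient
import Mathlib.AlgebraicGeometry.ResidueField

/-!
# The geometric fibre of a quadratic algebra

`B` an `R`-algebra generated by a root `x` of `P = X² + bX + c`, with `R`-homomorphisms `B → Ω` sending
`x` to `α` and to `β`, the two distinct roots of `P` in the separably closed field `Ω`.  Then
`T = Spec B ×_R Spec Ω` consists of two points `Spec Ω ⟶ T` (`exists_sections`).
-/

set_option autoImplicit false
universe u
open CategoryTheory CategoryTheory.Limits AlgebraicGeometry Opposite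

namespace Groth.Agent.Vancyc.H688.TwoRoots

variable {T : Scheme.{u}} {Ω : Type u} [Field Ω]

/-- A section of `T ⟶ Spec Ω` is determined by its image point. -/
theorem section_ext (s : T ⟶ Spec (CommRingCat.of Ω)) (a b : Spec (CommRingCat.of Ω) ⟶ T)
    (ha : a ≫ s = 𝟙 _) (hb : b ≫ s = 𝟙 _) (h : a default = b default) : a = b := by
  have h0 : (default : Spec (CommRingCat.of Ω)) = IsLocalRing.closedPoint Ω := Subsingleton.elim _ _
  rw [h0] at h
  have key : ∀ (x : T) (c : Spec (CommRingCat.of Ω) ⟶ T) (hc : c ≫ s = 𝟙 _)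
      (hx : c (IsLocalRing.closedPoint Ω) = x), ∃ p : T.residueField x ⟶ CommRingCat.of Ω,
        Spec.map p ≫ T.fromSpecResidueField x = c ∧
          Spec.preimage (T.fromSpecResidueField x ≫ s) ≫ p = 𝟙 _ := by
    rintro x c hc rfl
    refine ⟨T.descResidueField (Scheme.stalkClosedPointTo c),
      T.descResidueField_stalkClosedPointTo_fromSpecResidueField Ω c, ?_⟩
    apply Spec.map_injective
    rw [Spec.map_comp, Spec.map_preimage, ← Category.assoc,
      T.descResidueField_stalkClosedPointTo_fromSpecResidueField Ω c, hc, Spec.map_id]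
  obtain ⟨x, hx⟩ : ∃ x : T, b (IsLocalRing.closedPoint Ω) = x := ⟨_, rfl⟩
  obtain ⟨p, hp1, hp2⟩ := key x a ha (h.trans hx)
  obtain ⟨p', hp1', hp2'⟩ := key x b hb hx
  rw [← hp1, ← hp1']
  congr 2
  -- `q` is bijective
  let q := Spec.preimage (T.fromSpecResidueField x ≫ s)
  have hq : Function.Injective p.hom := RingHom.injective _
  have hqs : q ≫ p = 𝟙 _ := hp2
  have hqs' : q ≫ p' = 𝟙 _ := hp2'
  have hpq : p ≫ q = 𝟙 _ := by
    ext y
    apply hq
    exact congrArg (fun φ : CommRingCat.of Ω ⟶ CommRingCat.of Ω => φ.hom (p.hom y)) hqs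
  calc p = p ≫ (q ≫ p') := by rw [hqs', Category.comp_id]
    _ = (p ≫ q) ≫ p' := (Category.assoc _ _ _).symm
    _ = p' := by rw [hpq, Category.id_comp]

variable {R B : Type u} [CommRing R] [CommRing B] [Algebra R B] [Algebra R Ω]

/-- The two geometric points of a quadratic algebra. -/
theorem exists_sections (x : B) (hgen : Algebra.adjoin R {x} = ⊤) (α β : Ω) (hαβ : α ≠ β)
    (b c : R) (hx : x ^ 2 + algebraMap R B b * x + algebraMap R B c = 0)
    (hb : algebraMap R Ω b = -(α + β)) (hc : algebraMap R Ω c = α * β)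
    (eα eβ : B →ₐ[R] Ω) (heα : eα x = α) (heβ : eβ x = β)
    {pr : T ⟶ Spec (CommRingCat.of B)} {s : T ⟶ Spec (CommRingCat.of Ω)}
    (h : IsPullback pr s (Spec.map (CommRingCat.ofHom (algebraMap R B)))
      (Spec.map (CommRingCat.ofHom (algebraMap R Ω)))) :
    ∃ a : Fin 2 → (Spec (CommRingCat.of Ω) ⟶ T), (∀ i, a i ≫ s = 𝟙 _) ∧
      a 0 ≫ pr = Spec.map (CommRingCat.ofHom eα.toRingHom) ∧
      a 1 ≫ pr = Spec.map (CommRingCat.ofHom eβ.toRingHom) ∧
      Function.Bijective fun i => a i default := by
  have w : ∀ e : B →ₐ[R] Ω, Spec.map (CommRingCat.ofHom e.toRingHom) ≫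
      Spec.map (CommRingCat.ofHom (algebraMap R B)) =
      𝟙 _ ≫ Spec.map (CommRingCat.ofHom (algebraMap R Ω)) := by
    intro e
    rw [← Spec.map_comp, Category.id_comp]
    congr 1
    ext r
    exact e.commutes r
  let f : (B →ₐ[R] Ω) → (Spec (CommRingCat.of Ω) ⟶ T) := fun e => h.lift _ _ (w e)
  have hf1 : ∀ e, f e ≫ pr = Spec.map (CommRingCat.ofHom e.toRingHom) := fun e => h.lift_fst _ _ _
  have hf2 : ∀ e, f e ≫ s = 𝟙 _ := fun e => h.lift_snd _ _ _
  refine ⟨![f eα, f eβ], ?_, hf1 eα, hf1 eβ, ?_, ?_⟩
  · intro i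
    fin_cases i
    · exact hf2 eα
    · exact hf2 eβ
  · have hne : f eα default ≠ f eβ default := by
      intro h1
      have h2 := section_ext s _ _ (hf2 eα) (hf2 eβ) h1
      have h3 : Spec.map (CommRingCat.ofHom eα.toRingHom) = Spec.map (CommRingCat.ofHom eβ.toRingHom) := by
        rw [← hf1, ← hf1, h2]
      have h4 := Spec.map_injective h3
      have h5 := congrArg (fun φ : CommRingCat.of B ⟶ CommRingCat.of Ω => φ.hom x) h4
      exact hαβ (heα.symm.trans (Eq.trans h5 heβ))
    intro i j hij
    fin_cases i <;> fin_cases j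
    · rfl
    · exact absurd hij hne
    · exact absurd hij.symm hne
    · rfl
  · intro t
    let k := T.residueField t
    let ι : Spec k ⟶ T := T.fromSpecResidueField t
    have hι : ι default = t := Scheme.fromSpecResidueField_apply t _
    let φ : CommRingCat.of B ⟶ k := Spec.preimage (ι ≫ pr)
    let σ : CommRingCat.of Ω ⟶ k := Spec.preimage (ι ≫ s)
    have hφ : Spec.map φ = ι ≫ pr := Spec.map_preimage _
    have hσ : Spec.map σ = ι ≫ s := Spec.map_preimage _
    have hcomm : ∀ r : R, φ.hom (algebraMap R B r) = σ.hom (algebraMap R Ω r) := by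
      have h1 : CommRingCat.ofHom (algebraMap R B) ≫ φ = CommRingCat.ofHom (algebraMap R Ω) ≫ σ := by
        apply Spec.map_injective
        rw [Spec.map_comp, Spec.map_comp, hφ, hσ, Category.assoc, Category.assoc, h.w]
      intro r
      exact congrArg (fun ψ : CommRingCat.of R ⟶ k => ψ.hom r) h1
    have hroot : (φ.hom x - σ.hom α) * (φ.hom x - σ.hom β) = 0 := by
      have h1 := congrArg φ.hom hx
      rw [map_add, map_add, map_pow, map_mul, hcomm, hcomm, hb, hc, map_neg, map_add, map_mul,
        map_zero] at h1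
      linear_combination h1
    -- `Spec k ⟶ T` factors through the section
    have key : ∀ e : B →ₐ[R] Ω, φ.hom x = σ.hom (e x) → t = f e default := by
      intro e he
      have h1 : φ = CommRingCat.ofHom e.toRingHom ≫ σ := by
        ext y
        have hy : y ∈ Algebra.adjoin R {x} := by rw [hgen]; trivial
        induction hy using Algebra.adjoin_induction with
        | mem z hz =>
          rw [Set.mem_singleton_iff] at hz
          rw [hz]
          exact he
        | algebraMap r =>
          refine (hcomm r).trans ?_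
          exact congrArg σ.hom (e.commutes r).symm
        | add y z _ _ hy hz => rw [map_add, map_add, hy, hz]
        | mul y z _ _ hy hz => rw [map_mul, map_mul, hy, hz]
      have h2 : ι = Spec.map σ ≫ f e := by
        apply h.hom_ext
        · rw [Category.assoc, hf1, ← hφ, h1, Spec.map_comp]
        · rw [Category.assoc, hf2, Category.comp_id, hσ]
      calc t = ι default := hι.symm
        _ = f e ((Spec.map σ) default) := by rw [h2]; rfl
        _ = f e default := congrArg _ (Subsingleton.elim _ _)
    rcases mul_eq_zero.1 hroot with h1 | h1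
    · exact ⟨0, (key eα (by rw [heα]; exact sub_eq_zero.1 h1)).symm⟩
    · exact ⟨1, (key eβ (by rw [heβ]; exact sub_eq_zero.1 h1)).symm⟩

end Groth.Agent.Vancyc.H688.TwoRoots
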